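import Mathlib
import Cfsg.Agent.Lib.Helper49.HUP.Defs

/-!
# HUPT project (S3360, Huppert: solvable groups transitive on the non-zero vectors)

Interface file: definitions and one `Prop` per package.
-/

set_option autoImplicit false

universe u v

namespace Cfsg.Agent.Lib.Helper50.HUPT

open Cfsg.Agent.Lib.Helper49.HUP (Irr SemiU Semi0)

/-- transitive on the non-zero vectors -/
def Tr {q : ℕ} [Fact q.Prime] {V : Type u} [AddCommGroup V] [Module (ZMod q) V]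
    {G : Type v} [Group G] (ρ : G →* (V ≃ₗ[ZMod q] V)) : Prop :=
  ∀ v w : V, v ≠ 0 → w ≠ 0 → ∃ g : G, ρ g v = w

/-- (NI): no normal cyclic irreducible subgroup -/
def NI {q : ℕ} [Fact q.Prime] {V : Type u} [AddCommGroup V] [Module (ZMod q) V]
    {G : Type v} [Group G] (ρ : G →* (V ≃ₗ[ZMod q] V)) : Prop :=
  ¬ ∃ A : Subgroup G, A.Normal ∧ IsCyclic A ∧ Irr ρ A

/-- `p` is a primitive prime divisor of `q ^ n - 1` -/
def PPD (q n p : ℕ) : Prop :=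
  p.Prime ∧ p ∣ q ^ n - 1 ∧ ∀ j : ℕ, 0 < j → j < n → ¬ p ∣ q ^ j - 1

/-- `ρ g` as an endomorphism of `V` -/
def toE {q : ℕ} [Fact q.Prime] {V : Type u} [AddCommGroup V] [Module (ZMod q) V]
    {G : Type v} [Group G] (ρ : G →* (V ≃ₗ[ZMod q] V)) (g : G) : Module.End (ZMod q) V :=
  ((ρ g : V ≃ₗ[ZMod q] V) : V →ₗ[ZMod q] V)

/-- the subalgebra of `End V` generated by `ρ(A)` -/
def KA {q : ℕ} [Fact q.Prime] {V : Type u} [AddCommGroup V] [Module (ZMod q) V]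
    {G : Type v} [Group G] (ρ : G →* (V ≃ₗ[ZMod q] V)) (A : Subgroup G) :
    Subalgebra (ZMod q) (Module.End (ZMod q) V) :=
  Algebra.adjoin (ZMod q) (toE ρ '' (A : Set G))

/-- a subalgebra of `End V` that is commutative with all non-zero elements injective
(for finite `V`: a field) -/
def IsFld {q : ℕ} [Fact q.Prime] {V : Type u} [AddCommGroup V] [Module (ZMod q) V]
    (K : Subalgebra (ZMod q) (Module.End (ZMod q) V)) : Prop :=
  (∀ f ∈ K, ∀ g ∈ K, f * g = g * f) ∧ ∀ f ∈ K, f ≠ 0 → Function.Injective f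

/-- the commutator `a b a⁻¹ b⁻¹` (no bracket notation, so that no scope has to be opened) -/
def cm {G : Type v} [Group G] (a b : G) : G := a * b * a⁻¹ * b⁻¹

/-- the subgroup `A` is abelian -/
def Ab {G : Type v} [Group G] (A : Subgroup G) : Prop := ∀ a ∈ A, ∀ b ∈ A, a * b = b * a

/-- `M` has class at most 2: commutators of `M` are central in `M` -/
def Cl2 {G : Type v} [Group G] (M : Subgroup G) : Prop :=
  ∀ a ∈ M, ∀ b ∈ M, ∀ c ∈ M, cm a b * c = c * cm a b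

/-- the centre of `M`, as a subgroup of `G` -/
def ZM {G : Type v} [Group G] (M : Subgroup G) : Subgroup G :=
  M ⊓ Subgroup.centralizer (M : Set G)

/-- every element `y` of order `p` acts without non-trivial fixed points on `M / Z(M)` -/
def Fpf {G : Type v} [Group G] (p : ℕ) (M : Subgroup G) : Prop :=
  ∀ y : G, orderOf y = p → ∀ a ∈ M, (∀ b ∈ M, cm y a * b = b * cm y a) →
    ∀ b ∈ M, a * b = b * a

/-- the subgroup produced by [XM] -/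
def XGood {G : Type v} [Group G] (p r : ℕ) (M : Subgroup G) : Prop :=
  M.Normal ∧ IsPGroup r M ∧ Cl2 M ∧ (∀ a ∈ M, ∀ b ∈ M, a ^ r * b = b * a ^ r) ∧ ¬ Ab M ∧
    Fpf p M

/-! ### top-level packages -/

/-- [CARD] -/
def PkgCard : Prop :=
  ∀ {q : ℕ} [Fact q.Prime] {V : Type u} [AddCommGroup V] [Module (ZMod q) V] [Finite V]
    [Nontrivial V], ∃ n : ℕ, 0 < n ∧ Nat.card V = q ^ n

/-- [ORB] -/
def PkgOrb : Prop :=
  ∀ {q : ℕ} [Fact q.Prime] {V : Type u} [AddCommGroup V] [Module (ZMod q) V] [Finite V]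
    [Nontrivial V] {G : Type v} [Group G] [Finite G] (ρ : G →* (V ≃ₗ[ZMod q] V)), Tr ρ →
    Nat.card V - 1 ∣ Nat.card G

/-- [ONE] -/
def PkgOne : Prop :=
  ∀ {q : ℕ} [Fact q.Prime] {V : Type u} [AddCommGroup V] [Module (ZMod q) V] [Finite V]
    [Nontrivial V] {G : Type v} [Group G] [Finite G] (ρ : G →* (V ≃ₗ[ZMod q] V)),
    Nat.card V = q → ¬ NI ρ

/-- [NUM3] -/
def PkgNum3 : Prop :=
  ∀ q n : ℕ, q.Prime → 3 ≤ n → ¬ (q = 2 ∧ n = 6) →
    (∀ p : ℕ, PPD q n p → Odd q ∧ (∃ d : ℕ, n = 2 ^ d) ∧ p = n + 1 ∧ ¬ p ^ 2 ∣ q ^ n - 1) →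
    q = 3 ∧ n = 4

/-- [X] -/
def PkgX : Prop :=
  ∀ {q : ℕ} [Fact q.Prime] {V : Type u} [AddCommGroup V] [Module (ZMod q) V] [Finite V]
    [Nontrivial V] {G : Type v} [Group G] [Finite G] (ρ : G →* (V ≃ₗ[ZMod q] V)),
    Group.IsSolvable G → Function.Injective ρ → Tr ρ → NI ρ →
    ∀ n p : ℕ, 2 ≤ n → Nat.card V = q ^ n → PPD q n p →
      Odd q ∧ (∃ d : ℕ, n = 2 ^ d) ∧ p = n + 1 ∧ ¬ p ^ 2 ∣ q ^ n - 1

/-- [TWO] -/
def PkgTwo : Prop :=
  ∀ {q : ℕ} [Fact q.Prime] {V : Type u} [AddCommGroup V] [Module (ZMod q) V] [Finite V]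
    [Nontrivial V] {G : Type v} [Group G] [Finite G] (ρ : G →* (V ≃ₗ[ZMod q] V)),
    Group.IsSolvable G → Function.Injective ρ → Tr ρ → NI ρ → Nat.card V = q ^ 2 →
    q = 3 ∨ q = 5 ∨ q = 7 ∨ q = 11 ∨ q = 23

/-- [E26] -/
def PkgE26 : Prop :=
  ∀ {q : ℕ} [Fact q.Prime] {V : Type u} [AddCommGroup V] [Module (ZMod q) V] [Finite V]
    [Nontrivial V] {G : Type v} [Group G] [Finite G] (ρ : G →* (V ≃ₗ[ZMod q] V)),
    Group.IsSolvable G → Function.Injective ρ → Tr ρ → q = 2 → Nat.card V = 64 → ¬ NI ρ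

/-! ### tool packages: primitive prime divisors -/

/-- [CNT] -/
def PkgCnt : Prop :=
  ∀ {q n p : ℕ} [Fact q.Prime], PPD q n p → ∀ {U : Type u} [AddCommGroup U] [Finite U]
    (φ : U →+ U) (k : ℕ), k ≤ n → Nat.card U = q ^ k → (∀ u : U, φ^[p] u = u) →
    (∀ u : U, φ u = u) ∨ (k = n ∧ ∀ u : U, φ u = u → u = 0)

/-- [PNUM] -/
def PkgPNum : Prop :=
  ∀ q n p : ℕ, 0 < n → PPD q n p → n + 1 ≤ p

/-- [PPDA] -/
def PkgPpdA : Prop :=
  ∀ {q : ℕ} [Fact q.Prime] {V : Type u} [AddCommGroup V] [Module (ZMod q) V] [Finite V]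
    [Nontrivial V] {G : Type v} [Group G] [Finite G] (ρ : G →* (V ≃ₗ[ZMod q] V)),
    Function.Injective ρ → ∀ n p : ℕ, 0 < n → Nat.card V = q ^ n → PPD q n p →
    ∀ x : G, orderOf x = p → Irr ρ (Subgroup.zpowers x)

/-- [PPDC] -/
def PkgPpdC : Prop :=
  ∀ {q : ℕ} [Fact q.Prime] {V : Type u} [AddCommGroup V] [Module (ZMod q) V] [Finite V]
    [Nontrivial V] {G : Type v} [Group G] [Finite G] (ρ : G →* (V ≃ₗ[ZMod q] V)) (x : G),
    Irr ρ (Subgroup.zpowers x) → ∀ f g : Module.End (ZMod q) V,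
    f * toE ρ x = toE ρ x * f → g * toE ρ x = toE ρ x * g → f * g = g * f

/-! ### tool packages: the field lemma and abelian normal subgroups -/

/-- [FLD] -/
def PkgFld : Prop :=
  ∀ {q : ℕ} [Fact q.Prime] {V : Type u} [AddCommGroup V] [Module (ZMod q) V] [Finite V]
    [Nontrivial V] {G : Type v} [Group G] [Finite G] (ρ : G →* (V ≃ₗ[ZMod q] V)), Tr ρ →
    ∀ K : Subalgebra (ZMod q) (Module.End (ZMod q) V), (∀ f ∈ K, ∀ g ∈ K, f * g = g * f) →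
    (∀ g : G, ∀ f ∈ K, toE ρ g * f * toE ρ (g⁻¹) ∈ K) → IsFld K

/-- [ABN] -/
def PkgAbn : Prop :=
  ∀ {q : ℕ} [Fact q.Prime] {V : Type u} [AddCommGroup V] [Module (ZMod q) V] [Finite V]
    [Nontrivial V] {G : Type v} [Group G] [Finite G] (ρ : G →* (V ≃ₗ[ZMod q] V)),
    Function.Injective ρ → Tr ρ → ∀ A : Subgroup G, A.Normal → Ab A →
    IsCyclic A ∧ IsFld (KA ρ A) ∧ (¬ Irr ρ A → Nat.card (KA ρ A) < Nat.card V)

/-- [CENT] -/
def PkgCent : Prop :=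
  ∀ {q : ℕ} [Fact q.Prime] {V : Type u} [AddCommGroup V] [Module (ZMod q) V] [Finite V]
    [Nontrivial V] {G : Type v} [Group G] [Finite G] (ρ : G →* (V ≃ₗ[ZMod q] V)),
    Function.Injective ρ → Tr ρ → NI ρ → ∀ n p : ℕ, 0 < n → Nat.card V = q ^ n → PPD q n p →
    ∀ x : G, orderOf x = p → ∀ A : Subgroup G, A.Normal → Ab A → ∀ a ∈ A, x * a = a * x

/-- [NOP] -/
def PkgNop : Prop :=
  ∀ {q : ℕ} [Fact q.Prime] {V : Type u} [AddCommGroup V] [Module (ZMod q) V] [Finite V]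
    [Nontrivial V] {G : Type v} [Group G] [Finite G] (ρ : G →* (V ≃ₗ[ZMod q] V)),
    Function.Injective ρ → Tr ρ → NI ρ → ∀ n p : ℕ, 0 < n → Nat.card V = q ^ n → PPD q n p →
    ∀ A : Subgroup G, A.Normal → Ab A → ¬ p ∣ Nat.card A

/-- [FIT] -/
def PkgFit : Prop :=
  ∀ {q : ℕ} [Fact q.Prime] {V : Type u} [AddCommGroup V] [Module (ZMod q) V] [Finite V]
    [Nontrivial V] {G : Type v} [Group G] [Finite G] (ρ : G →* (V ≃ₗ[ZMod q] V)),
    Group.IsSolvable G → Function.Injective ρ → Tr ρ → NI ρ →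
    ∀ n p : ℕ, 0 < n → Nat.card V = q ^ n → PPD q n p → ∀ x : G, orderOf x = p →
    ∃ r : ℕ, r.Prime ∧ r ≠ p ∧ ∃ R : Subgroup G, R.Normal ∧ IsPGroup r R ∧
      ¬ (∀ a ∈ R, x * a = a * x)

/-! ### tool packages: pure group theory -/

/-- [MIN] -/
def PkgMin : Prop :=
  ∀ {G : Type v} [Group G] [Finite G] (R : Subgroup G) (x : G) (p r : ℕ), p.Prime → r.Prime →
    p ≠ r → R.Normal → IsPGroup r R → x ^ p = 1 → ¬ (∀ a ∈ R, x * a = a * x) →
    ∃ M : Subgroup G, M.Normal ∧ M ≤ R ∧ ¬ (∀ a ∈ M, x * a = a * x) ∧ Cl2 M ∧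
      (∀ a ∈ M, ∀ b ∈ M, a ^ r * b = b * a ^ r)

/-- [FIXM] -/
def PkgFixM : Prop :=
  ∀ {G : Type v} [Group G] [Finite G] (M : Subgroup G) (y : G) (p r : ℕ), p.Prime → r.Prime →
    p ≠ r → M.Normal → IsPGroup r M → y ^ p = 1 → Cl2 M →
    (∀ a ∈ M, (∀ b ∈ M, a * b = b * a) → y * a = a * y) →
    (∀ a ∈ M, ∀ b ∈ M, y * a = a * y → y * b = b * y → a * b = b * a) →
    ∀ a ∈ M, (∀ b ∈ M, cm y a * b = b * cm y a) → ∀ b ∈ M, a * b = b * a

/-- [SQ] -/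
def PkgSq : Prop :=
  ∀ {Q : Type v} [Group Q] [Finite Q] (r : ℕ) (z : Q), r.Prime → z ∈ Subgroup.center Q →
    orderOf z = r → (∀ a b : Q, cm a b ∈ Subgroup.zpowers z) →
    ∃ d : ℕ, (Subgroup.center Q).index = r ^ (2 * d)

/-- [XSYL] -/
def PkgXSyl : Prop :=
  ∀ {G : Type v} [Group G] [Finite G] (M : Subgroup G) (p r : ℕ), p.Prime → r.Prime →
    p ≠ r → M.Normal → IsPGroup r M → Fpf p M →
    ∀ k : ℕ, p ^ k ∣ Nat.card G → p ^ k ∣ (Subgroup.center M).index - 1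

/-- [G24] -/
def PkgG24 : Prop :=
  ∀ {G : Type v} [Group G] [Finite G] (M : Subgroup G), M.Normal →
    IsCyclic (Subgroup.center G) → (Subgroup.center M).index = 4 →
    (∀ a ∈ M, (∀ b ∈ M, a * b = b * a) → a ∈ Subgroup.center G) →
    (∀ g : G, (∀ a ∈ M, g * a = a * g) → g ∈ Subgroup.center G) →
    (Subgroup.center G).index ∣ 24

/-! ### tool packages: the degree bound -/

/-- [FSTR] -/
def PkgFStr : Prop :=
  ∀ {q : ℕ} [Fact q.Prime] {V : Type u} [AddCommGroup V] [Module (ZMod q) V] [Finite V]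
    [Nontrivial V] (K : Subalgebra (ZMod q) (Module.End (ZMod q) V)), IsFld K →
    ∃ (F : Type u) (_ : Field F) (_ : Finite F) (_ : Module F V), Nat.card F = Nat.card K ∧
      (∀ c : F, ∃ f ∈ K, ∀ v : V, c • v = f v) ∧ (∀ f ∈ K, ∃ c : F, ∀ v : V, f v = c • v)

/-- [DEGABS] -/
def PkgDegAbs : Prop :=
  ∀ {F : Type u} [Field F] {V : Type u} [AddCommGroup V] [Module F V] [Module.Finite F V]
    [Nontrivial V] {M : Type v} [Group M] [Finite M] (τ : M →* (V ≃ₗ[F] V)), Function.Injective τ →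
    (∀ a b c : M, cm a b * c = c * cm a b) →
    (∀ z ∈ Subgroup.center M, ∃ c : F, ∀ v : V, τ z v = c • v) →
    (Subgroup.center M).index ≤ (Module.finrank F V) ^ 2

/-- [CENABS] -/
def PkgCenAbs : Prop :=
  ∀ {F : Type u} [Field F] {V : Type u} [AddCommGroup V] [Module F V] [Module.Finite F V]
    {M : Type v} [Group M] [Finite M] (τ : M →* (V ≃ₗ[F] V)), Function.Injective τ →
    (∀ a b c : M, cm a b * c = c * cm a b) →
    (∀ z ∈ Subgroup.center M, ∃ c : F, ∀ v : V, τ z v = c • v) →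
    (Subgroup.center M).index = (Module.finrank F V) ^ 2 →
    ∀ T : V →ₗ[F] V, (∀ (a : M) (v : V), T (τ a v) = τ a (T v)) → ∃ c : F, ∀ v : V, T v = c • v

/-- [DEG] -/
def PkgDeg : Prop :=
  ∀ {q : ℕ} [Fact q.Prime] {V : Type u} [AddCommGroup V] [Module (ZMod q) V] [Finite V]
    [Nontrivial V] {G : Type v} [Group G] [Finite G] (ρ : G →* (V ≃ₗ[ZMod q] V)),
    Function.Injective ρ → ∀ (M : Subgroup G) (K : Subalgebra (ZMod q) (Module.End (ZMod q) V)),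
    IsFld K → Cl2 M → (∀ a ∈ M, (∀ b ∈ M, a * b = b * a) → toE ρ a ∈ K) →
    (∀ a ∈ M, ∀ f ∈ K, toE ρ a * f = f * toE ρ a) →
    ∃ m : ℕ, Nat.card V = Nat.card K ^ m ∧ (Subgroup.center M).index ≤ m ^ 2

/-- [CEN] -/
def PkgCen : Prop :=
  ∀ {q : ℕ} [Fact q.Prime] {V : Type u} [AddCommGroup V] [Module (ZMod q) V] [Finite V]
    [Nontrivial V] {G : Type v} [Group G] [Finite G] (ρ : G →* (V ≃ₗ[ZMod q] V)),
    Function.Injective ρ → ∀ (M : Subgroup G) (K : Subalgebra (ZMod q) (Module.End (ZMod q) V)),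
    IsFld K → Cl2 M → (∀ a ∈ M, (∀ b ∈ M, a * b = b * a) → toE ρ a ∈ K) →
    (∀ a ∈ M, ∀ f ∈ K, toE ρ a * f = f * toE ρ a) →
    ∀ m : ℕ, Nat.card V = Nat.card K ^ m → (Subgroup.center M).index = m ^ 2 →
    ∀ g : G, (∀ a ∈ M, g * a = a * g) → (∀ f ∈ K, toE ρ g * f = f * toE ρ g) → toE ρ g ∈ K

/-! ### the three structural assemblies -/

/-- [XM] -/
def PkgXM : Prop :=
  ∀ {q : ℕ} [Fact q.Prime] {V : Type u} [AddCommGroup V] [Module (ZMod q) V] [Finite V]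
    [Nontrivial V] {G : Type v} [Group G] [Finite G] (ρ : G →* (V ≃ₗ[ZMod q] V)),
    Group.IsSolvable G → Function.Injective ρ → Tr ρ → NI ρ →
    ∀ n p : ℕ, 2 ≤ n → Nat.card V = q ^ n → PPD q n p →
    ∃ r : ℕ, r.Prime ∧ r ≠ p ∧ ∃ M : Subgroup G, XGood p r M

/-- [XN] -/
def PkgXN : Prop :=
  ∀ {q : ℕ} [Fact q.Prime] {V : Type u} [AddCommGroup V] [Module (ZMod q) V] [Finite V]
    [Nontrivial V] {G : Type v} [Group G] [Finite G] (ρ : G →* (V ≃ₗ[ZMod q] V)),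
    Function.Injective ρ → Tr ρ → ∀ n p r : ℕ, 2 ≤ n → Nat.card V = q ^ n → p.Prime →
    r.Prime → r ≠ p → ∀ M : Subgroup G, XGood p r M →
    ∃ d : ℕ, 0 < d ∧ r ^ d ≤ n ∧ (r = 2 → Odd q) ∧
      ∀ k : ℕ, p ^ k ∣ Nat.card G → p ^ k ∣ r ^ (2 * d) - 1

/-- [XB] -/
def PkgXB : Prop :=
  ∀ q n p r d N : ℕ, 2 ≤ n → PPD q n p → n + 1 ≤ p → r.Prime → 0 < d → r ^ d ≤ n →
    (r = 2 → Odd q) → q ^ n - 1 ∣ N → (∀ k : ℕ, p ^ k ∣ N → p ^ k ∣ r ^ (2 * d) - 1) →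
    Odd q ∧ (∃ d : ℕ, n = 2 ^ d) ∧ p = n + 1 ∧ ¬ p ^ 2 ∣ q ^ n - 1

/-- [SCAL] -/
def PkgScal : Prop :=
  ∀ {q : ℕ} [Fact q.Prime] {V : Type u} [AddCommGroup V] [Module (ZMod q) V] [Finite V]
    [Nontrivial V] {G : Type v} [Group G] [Finite G] (ρ : G →* (V ≃ₗ[ZMod q] V)),
    Function.Injective ρ → Tr ρ → NI ρ → Nat.card V = q ^ 2 →
    ∀ A : Subgroup G, A.Normal → Ab A → ∀ a ∈ A, ∃ c : ZMod q, ∀ v : V, ρ a v = c • v

/-- [TWOZ] -/
def PkgTwoZ : Prop :=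
  ∀ {q : ℕ} [Fact q.Prime] {V : Type u} [AddCommGroup V] [Module (ZMod q) V] [Finite V]
    [Nontrivial V] {G : Type v} [Group G] [Finite G] (ρ : G →* (V ≃ₗ[ZMod q] V)),
    Function.Injective ρ → Tr ρ → NI ρ → Nat.card V = q ^ 2 →
    IsCyclic (Subgroup.center G) ∧ Nat.card (Subgroup.center G) ∣ q - 1

/-- [TWOM] -/
def PkgTwoM : Prop :=
  ∀ {q : ℕ} [Fact q.Prime] {V : Type u} [AddCommGroup V] [Module (ZMod q) V] [Finite V]
    [Nontrivial V] {G : Type v} [Group G] [Finite G] (ρ : G →* (V ≃ₗ[ZMod q] V)),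
    Group.IsSolvable G → Function.Injective ρ → Tr ρ → NI ρ → Nat.card V = q ^ 2 →
    Odd q ∧ ∃ M : Subgroup G, M.Normal ∧ (Subgroup.center M).index = 4 ∧
      (∀ a ∈ M, (∀ b ∈ M, a * b = b * a) → a ∈ Subgroup.center G) ∧
      (∀ g : G, (∀ a ∈ M, g * a = a * g) → g ∈ Subgroup.center G)

end Cfsg.Agent.Lib.Helper50.HUPT
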