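import Mathlib
import Cfsg.Agent.Lib.Helper50.HUPT.Defs
import Cfsg.Agent.Lib.Helper93.HUP.SemiU
import Cfsg.Agent.Lib.Helper79.HUP.SemiD

/-!
# HUPT project (S3360): assembly of the packages
-/

set_option autoImplicit false

universe u v

namespace Cfsg.Agent.Lib.Helper50.HUPT

open Cfsg.Agent.Lib.Helper49.HUP (Irr SemiU Semi0)

/-- a normal cyclic irreducible subgroup gives the semilinear alternative -/
theorem semi0_of_normal_cyclic_irr {q : ℕ} [Fact q.Prime] {V : Type u} [AddCommGroup V]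
    [Module (ZMod q) V] [Finite V] [Nontrivial V] {G : Type v} [Group G]
    (ρ : G →* (V ≃ₗ[ZMod q] V)) (A : Subgroup G) (hAn : A.Normal) (hAc : IsCyclic A)
    (hirr : Irr ρ A) : Semi0 ρ :=
  Cfsg.Agent.Lib.Helper79.HUP.pkgSemiD ρ
    (Cfsg.Agent.Lib.Helper93.HUP.semiU_of_normal_cyclic_irr ρ A hAn hAc hirr)

/-- [X] from its parts -/
theorem x_of (hOrb : PkgOrb.{u, v}) (hPNum : PkgPNum) (hXM : PkgXM.{u, v})
    (hXN : PkgXN.{u, v}) (hXB : PkgXB) : PkgX.{u, v} := by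
  intro q _ V _ _ _ _ G _ _ ρ hsol hinj htr hni n p hn hcard hppd
  obtain ⟨r, hr, hrp, M, hM⟩ := hXM ρ hsol hinj htr hni n p hn hcard hppd
  obtain ⟨d, hd, hrd, hodd, hk⟩ := hXN ρ hinj htr n p r hn hcard hppd.1 hr hrp M hM
  have horb := hOrb ρ htr
  rw [hcard] at horb
  exact hXB q n p r d (Nat.card G) hn hppd (hPNum q n p (by omega) hppd) hr hd hrd hodd horb hk

theorem two_arith (q : ℕ) (hq : q.Prime) (hodd : Odd q) (h : q + 1 ∣ 24) :
    q = 3 ∨ q = 5 ∨ q = 7 ∨ q = 11 ∨ q = 23 := by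
  have hle : q + 1 ≤ 24 := Nat.le_of_dvd (by norm_num) h
  have hq24 : q < 24 := by omega
  have h2 := hq.two_le
  rw [Nat.odd_iff] at hodd
  interval_cases q <;> omega

/-- [TWO] from its parts -/
theorem two_of (hOrb : PkgOrb.{u, v}) (hZ : PkgTwoZ.{u, v}) (hM : PkgTwoM.{u, v})
    (hG : PkgG24.{v}) : PkgTwo.{u, v} := by
  intro q _ V _ _ _ _ G _ _ ρ hsol hinj htr hni hcard
  obtain ⟨hcyc, hZc⟩ := hZ ρ hinj htr hni hcard
  obtain ⟨hodd, M, hMn, hidx, h1, h2⟩ := hM ρ hsol hinj htr hni hcard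
  have h24 := hG M hMn hcyc hidx h1 h2
  have horb := hOrb ρ htr
  rw [hcard] at horb
  have hGc : Nat.card G = Nat.card (Subgroup.center G) * (Subgroup.center G).index :=
    (Subgroup.card_mul_index _).symm
  have hdvd : q ^ 2 - 1 ∣ (q - 1) * 24 := by
    rw [hGc] at horb
    exact horb.trans (Nat.mul_dvd_mul hZc h24)
  have hq := (Fact.out : q.Prime)
  have hq2 : 2 ≤ q := hq.two_le
  have hfac : q ^ 2 - 1 = (q - 1) * (q + 1) := by
    obtain ⟨k, rfl⟩ : ∃ k, q = k + 1 := ⟨q - 1, by omega⟩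
    simp only [Nat.add_sub_cancel]
    have : (k + 1) ^ 2 = k * (k + 1 + 1) + 1 := by ring
    rw [this, Nat.add_sub_cancel]
  rw [hfac] at hdvd
  have h3 : q + 1 ∣ 24 := (Nat.mul_dvd_mul_iff_left (by omega)).1 hdvd
  exact two_arith q hq hodd h3

/-- the theorem, from the six top-level packages -/
theorem hupt_main (hCard : PkgCard.{u}) (hOne : PkgOne.{u, v}) (hTwo : PkgTwo.{u, v})
    (hE : PkgE26.{u, v}) (hX : PkgX.{u, v}) (hNum : PkgNum3)
    (q : ℕ) [Fact q.Prime] {V : Type u} [AddCommGroup V] [Module (ZMod q) V] [Finite V]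
    [Nontrivial V] {G : Type v} [Group G] [Finite G] (hsol : Group.IsSolvable G)
    (ρ : G →* (V ≃ₗ[ZMod q] V)) (hρ : Function.Injective ρ)
    (htrans : ∀ v w : V, v ≠ 0 → w ≠ 0 → ∃ g : G, ρ g v = w) :
    (∃ (F : Type) (_ : Field F) (_ : Fintype F) (e : V ≃+ F),
        ∀ g : G, ∃ (a : F) (σ : F ≃+* F), ∀ v : V, e (ρ g v) = a * σ (e v)) ∨
    Nat.card V ∈ ({9, 25, 49, 121, 529, 81} : Set ℕ) := by
  by_cases hni : NI ρ
  · right
    obtain ⟨n, hn, hcard⟩ := hCard (q := q) (V := V)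
    have hq := (Fact.out : q.Prime)
    rcases Nat.lt_or_ge n 2 with h1 | h2
    · have hn1 : n = 1 := by omega
      subst hn1
      exact absurd hni (hOne ρ (by simpa using hcard))
    rcases Nat.lt_or_ge n 3 with h2' | h3
    · have hn2 : n = 2 := by omega
      subst hn2
      rcases hTwo ρ hsol hρ htrans hni hcard with h | h | h | h | h <;> subst h <;>
        simp [hcard]
    · by_cases h26 : q = 2 ∧ n = 6
      · obtain ⟨rfl, rfl⟩ := h26
        exact absurd hni (hE ρ hsol hρ htrans rfl (by rw [hcard]; norm_num))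
      · obtain ⟨rfl, rfl⟩ := hNum q n hq h3 h26
          (fun p hp => hX ρ hsol hρ htrans hni n p (by omega) hcard hp)
        simp [hcard]
  · left
    unfold NI at hni
    push Not at hni
    obtain ⟨A, hAn, hAc, hirr⟩ := hni
    exact semi0_of_normal_cyclic_irr ρ A hAn hAc hirr

end Cfsg.Agent.Lib.Helper50.HUPT
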